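import Mathlib
import Cfsg.Agent.Lib.Helper15.OTBasic

set_option autoImplicit false

/-! A concrete fast model of `GL₃(𝔽₂)`, its order statistics and its non-solvability. -/

namespace Cfsg.Agent.Lib.Helper15.OTP

open Cfsg.Agent.Lib.Helper15.OTBasic
open scoped commutatorElement

/-- `3 × 3` matrices over `𝔽₂ = Bool` -/
@[ext] structure M3 where
  a : Bool
  b : Bool
  c : Bool
  d : Bool
  e : Bool
  f : Bool
  g : Bool
  h : Bool
  i : Bool
deriving DecidableEq

instance : Fintype M3 := Fintype.ofEquiv (Bool × Bool × Bool × Bool × Bool × Bool × Bool × Bool × Bool)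
  { toFun := fun p => ⟨p.1, p.2.1, p.2.2.1, p.2.2.2.1, p.2.2.2.2.1, p.2.2.2.2.2.1, p.2.2.2.2.2.2.1,
      p.2.2.2.2.2.2.2.1, p.2.2.2.2.2.2.2.2⟩
    invFun := fun x => (x.a, x.b, x.c, x.d, x.e, x.f, x.g, x.h, x.i)
    left_inv := fun _ => rfl
    right_inv := fun _ => rfl }

def M3.mul (x y : M3) : M3 :=
  ⟨x.a*y.a + x.b*y.d + x.c*y.g, x.a*y.b + x.b*y.e + x.c*y.h, x.a*y.c + x.b*y.f + x.c*y.i,
   x.d*y.a + x.e*y.d + x.f*y.g, x.d*y.b + x.e*y.e + x.f*y.h, x.d*y.c + x.e*y.f + x.f*y.i,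
   x.g*y.a + x.h*y.d + x.i*y.g, x.g*y.b + x.h*y.e + x.i*y.h, x.g*y.c + x.h*y.f + x.i*y.i⟩
def M3.one : M3 := ⟨1,0,0,0,1,0,0,0,1⟩
def M3.det (x : M3) : Bool :=
  x.a*(x.e*x.i - x.f*x.h) - x.b*(x.d*x.i - x.f*x.g) + x.c*(x.d*x.h - x.e*x.g)
def M3.adj (x : M3) : M3 :=
  ⟨x.e*x.i - x.f*x.h, -(x.b*x.i - x.c*x.h), x.b*x.f - x.c*x.e,
   -(x.d*x.i - x.f*x.g), x.a*x.i - x.c*x.g, -(x.a*x.f - x.c*x.d),
   x.d*x.h - x.e*x.g, -(x.a*x.h - x.b*x.g), x.a*x.e - x.b*x.d⟩
lemma M3.det_mul (x y : M3) : (x.mul y).det = x.det * y.det := by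
  simp only [M3.det, M3.mul]; ring
lemma M3.det_adj (x : M3) (h : x.det = 1) : x.adj.det = 1 := by
  have : x.adj.det = x.det * x.det := by simp only [M3.det, M3.adj]; ring
  rw [this, h]; rfl

/-- `GL₃(𝔽₂)` -/
def P : Type := {x : M3 // x.det = 1}
instance : DecidableEq P := inferInstanceAs (DecidableEq {x : M3 // x.det = 1})
instance : Fintype P := inferInstanceAs (Fintype {x : M3 // x.det = 1})
instance : Group P where
  mul x y := ⟨x.1.mul y.1, by rw [M3.det_mul, x.2, y.2]; rfl⟩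
  one := ⟨M3.one, rfl⟩
  inv x := ⟨x.1.adj, M3.det_adj _ x.2⟩
  mul_assoc x y z := by
    apply Subtype.ext
    show (x.1.mul y.1).mul z.1 = x.1.mul (y.1.mul z.1)
    ext <;> simp only [M3.mul] <;> ring
  one_mul x := by
    apply Subtype.ext
    show M3.one.mul x.1 = x.1
    ext <;> simp only [M3.mul, M3.one] <;> ring
  mul_one x := by
    apply Subtype.ext
    show x.1.mul M3.one = x.1
    ext <;> simp only [M3.mul, M3.one] <;> ring
  inv_mul_cancel x := by
    apply Subtype.ext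
    show x.1.adj.mul x.1 = M3.one
    have h := x.2
    simp only [M3.det] at h
    ext <;> simp only [M3.mul, M3.one, M3.adj]
    all_goals first
      | (linear_combination h)
      | ring

/-- the table of `GL₃(𝔽₂)` -/
def TP : Fin 12 → ℕ := ![1, 22, 57, 64, 78, 49, 120, 70, 105, 112, 126, 168]

set_option maxRecDepth 100000 in
lemma P_cases : ∀ x : P, x ^ 3 = 1 ∨ x ^ 4 = 1 ∨ x ^ 7 = 1 := by decide +kernel

lemma P_exp (x : P) : x ^ 84 = 1 := by
  rcases P_cases x with h | h | h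
  · rw [show 84 = 3 * 28 from rfl, pow_mul, h, one_pow]
  · rw [show 84 = 4 * 21 from rfl, pow_mul, h, one_pow]
  · rw [show 84 = 7 * 12 from rfl, pow_mul, h, one_pow]

set_option maxRecDepth 100000 in
lemma P_tab : ∀ i, (Finset.univ.filter (fun x : P => x ^ (D i) = 1)).card = TP i := by
  decide +kernel

lemma P_hasTab : HasTab P TP := HasTab.of_fintype P_exp P_tab

def xP : P := ⟨⟨true,true,false,false,true,false,false,false,true⟩, rfl⟩
def yP : P := ⟨⟨false,false,true,true,false,false,false,true,false⟩, rfl⟩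
def zP : P := ⟨⟨true,false,false,false,false,true,false,true,false⟩, rfl⟩

lemma key_P : xP = zP * ⁅xP, yP * xP * yP⁻¹⁆ * zP⁻¹ := by decide +kernel
lemma xP_ne : xP ≠ 1 := by decide +kernel

theorem P_not_isSolvable : ¬ Group.IsSolvable P := by
  refine not_isSolvable_of_mem_derivedSeries xP_ne fun n => ?_
  induction n with
  | zero => exact Subgroup.mem_top xP
  | succ n ih =>
    rw [key_P, (derivedSeries_normal _ _).mem_comm_iff, inv_mul_cancel_left]
    exact Subgroup.commutator_mem_commutator ih ((derivedSeries_normal _ _).conj_mem _ ih _)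

end Cfsg.Agent.Lib.Helper15.OTP
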