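import Mathlib
import Cfsg.Agent.Lib.Helper15.OTBasic

set_option autoImplicit false

/-! Dihedral and dicyclic atoms with sign characters: tables of twisted counts, and the
subdirect products ("terms") used for the order-type relation. (generated) -/

namespace Cfsg.Agent.Lib.Helper15.OTTerms

open Cfsg.Agent.Lib.Helper15.OTBasic

/-- the sign character of a dihedral group -/
def sgnD (n : ℕ) : DihedralGroup n →* ℤˣ where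
  toFun x := match x with
    | .r _ => 1
    | .sr _ => -1
  map_one' := rfl
  map_mul' := by
    rintro (a | a) (b | b) <;> rfl

/-- the sign character of a dicyclic group -/
def sgnQ (n : ℕ) : QuaternionGroup n →* ℤˣ where
  toFun x := match x with
    | .a _ => 1
    | .xa _ => -1
  map_one' := rfl
  map_mul' := by
    rintro (a | a) (b | b) <;> rfl

/-- a character of `D₈` with Klein four kernel -/
def chi2 : DihedralGroup 4 →* ℤˣ where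
  toFun x := match x with
    | .r i => (-1) ^ i.val
    | .sr i => (-1) ^ i.val
  map_one' := rfl
  map_mul' := by decide

lemma exp_prod {X Y : Type} [Group X] [Group Y] (h : ∀ x : X, x ^ 84 = 1) (h' : ∀ y : Y, y ^ 84 = 1) :
    ∀ p : X × Y, p ^ 84 = 1 := fun p => Prod.ext (h p.1) (h' p.2)

lemma exp_D3 : ∀ x : DihedralGroup 3, x ^ 84 = 1 := by decide +kernel
lemma exp_D7 : ∀ x : DihedralGroup 7, x ^ 84 = 1 := by decide +kernel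
lemma exp_D4 : ∀ x : DihedralGroup 4, x ^ 84 = 1 := by decide +kernel
lemma exp_Q3 : ∀ x : QuaternionGroup 3, x ^ 84 = 1 := by decide +kernel
lemma exp_Q7 : ∀ x : QuaternionGroup 7, x ^ 84 = 1 := by decide +kernel
lemma exp_C2 : ∀ x : Multiplicative (ZMod 2), x ^ 84 = 1 := by decide +kernel
lemma exp_C3 : ∀ x : Multiplicative (ZMod 3), x ^ 84 = 1 := by decide +kernel
lemma exp_C4 : ∀ x : Multiplicative (ZMod 4), x ^ 84 = 1 := by decide +kernel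
instance sol_D3 : Group.IsSolvable (DihedralGroup 3) := isSolvable_of_sign (sgnD 3) (by decide +kernel)
instance sol_D7 : Group.IsSolvable (DihedralGroup 7) := isSolvable_of_sign (sgnD 7) (by decide +kernel)
instance sol_D4 : Group.IsSolvable (DihedralGroup 4) := isSolvable_of_sign (sgnD 4) (by decide +kernel)
instance sol_Q3 : Group.IsSolvable (QuaternionGroup 3) := isSolvable_of_sign (sgnQ 3) (by decide +kernel)
instance sol_Q7 : Group.IsSolvable (QuaternionGroup 7) := isSolvable_of_sign (sgnQ 7) (by decide +kernel)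

def tW_D3_1s : Fin 12 → ℤ × ℤ × ℤ × ℤ := ![(1, 1, 1, 1), (4, 4, -2, -2), (3, 3, 3, 3), (4, 4, -2, -2), (6, 6, 0, 0), (1, 1, 1, 1), (6, 6, 0, 0), (4, 4, -2, -2), (3, 3, 3, 3), (4, 4, -2, -2), (6, 6, 0, 0), (6, 6, 0, 0)]
lemma W_D3_1s : ∀ i, W (1 : DihedralGroup 3 →* ℤˣ) (sgnD 3) (D i) = tW_D3_1s i := by decide +kernel
def tW_D3_s1 : Fin 12 → ℤ × ℤ × ℤ × ℤ := ![(1, 1, 1, 1), (4, -2, 4, -2), (3, 3, 3, 3), (4, -2, 4, -2), (6, 0, 6, 0), (1, 1, 1, 1), (6, 0, 6, 0), (4, -2, 4, -2), (3, 3, 3, 3), (4, -2, 4, -2), (6, 0, 6, 0), (6, 0, 6, 0)]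
lemma W_D3_s1 : ∀ i, W (sgnD 3) (1 : DihedralGroup 3 →* ℤˣ) (D i) = tW_D3_s1 i := by decide +kernel
def tW_D3_ss : Fin 12 → ℤ × ℤ × ℤ × ℤ := ![(1, 1, 1, 1), (4, -2, -2, 4), (3, 3, 3, 3), (4, -2, -2, 4), (6, 0, 0, 6), (1, 1, 1, 1), (6, 0, 0, 6), (4, -2, -2, 4), (3, 3, 3, 3), (4, -2, -2, 4), (6, 0, 0, 6), (6, 0, 0, 6)]
lemma W_D3_ss : ∀ i, W (sgnD 3) (sgnD 3) (D i) = tW_D3_ss i := by decide +kernel
def tW_D4_c1 : Fin 12 → ℤ × ℤ × ℤ × ℤ := ![(1, 1, 1, 1), (6, 2, 6, 2), (1, 1, 1, 1), (8, 0, 8, 0), (6, 2, 6, 2), (1, 1, 1, 1), (8, 0, 8, 0), (6, 2, 6, 2), (1, 1, 1, 1), (8, 0, 8, 0), (6, 2, 6, 2), (8, 0, 8, 0)]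
lemma W_D4_c1 : ∀ i, W chi2 (1 : DihedralGroup 4 →* ℤˣ) (D i) = tW_D4_c1 i := by decide +kernel
def tW_D4_cs : Fin 12 → ℤ × ℤ × ℤ × ℤ := ![(1, 1, 1, 1), (6, 2, -2, 2), (1, 1, 1, 1), (8, 0, 0, 0), (6, 2, -2, 2), (1, 1, 1, 1), (8, 0, 0, 0), (6, 2, -2, 2), (1, 1, 1, 1), (8, 0, 0, 0), (6, 2, -2, 2), (8, 0, 0, 0)]
lemma W_D4_cs : ∀ i, W chi2 (sgnD 4) (D i) = tW_D4_cs i := by decide +kernel
def tW_D4_s1 : Fin 12 → ℤ × ℤ × ℤ × ℤ := ![(1, 1, 1, 1), (6, -2, 6, -2), (1, 1, 1, 1), (8, 0, 8, 0), (6, -2, 6, -2), (1, 1, 1, 1), (8, 0, 8, 0), (6, -2, 6, -2), (1, 1, 1, 1), (8, 0, 8, 0), (6, -2, 6, -2), (8, 0, 8, 0)]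
lemma W_D4_s1 : ∀ i, W (sgnD 4) (1 : DihedralGroup 4 →* ℤˣ) (D i) = tW_D4_s1 i := by decide +kernel
def tW_D7_1s : Fin 12 → ℤ × ℤ × ℤ × ℤ := ![(1, 1, 1, 1), (8, 8, -6, -6), (1, 1, 1, 1), (8, 8, -6, -6), (8, 8, -6, -6), (7, 7, 7, 7), (8, 8, -6, -6), (14, 14, 0, 0), (7, 7, 7, 7), (14, 14, 0, 0), (14, 14, 0, 0), (14, 14, 0, 0)]
lemma W_D7_1s : ∀ i, W (1 : DihedralGroup 7 →* ℤˣ) (sgnD 7) (D i) = tW_D7_1s i := by decide +kernel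
def tW_D7_s1 : Fin 12 → ℤ × ℤ × ℤ × ℤ := ![(1, 1, 1, 1), (8, -6, 8, -6), (1, 1, 1, 1), (8, -6, 8, -6), (8, -6, 8, -6), (7, 7, 7, 7), (8, -6, 8, -6), (14, 0, 14, 0), (7, 7, 7, 7), (14, 0, 14, 0), (14, 0, 14, 0), (14, 0, 14, 0)]
lemma W_D7_s1 : ∀ i, W (sgnD 7) (1 : DihedralGroup 7 →* ℤˣ) (D i) = tW_D7_s1 i := by decide +kernel
def tW_Q3_s1 : Fin 12 → ℤ × ℤ × ℤ × ℤ := ![(1, 1, 1, 1), (2, 2, 2, 2), (3, 3, 3, 3), (8, -4, 8, -4), (6, 6, 6, 6), (1, 1, 1, 1), (12, 0, 12, 0), (2, 2, 2, 2), (3, 3, 3, 3), (8, -4, 8, -4), (6, 6, 6, 6), (12, 0, 12, 0)]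
lemma W_Q3_s1 : ∀ i, W (sgnQ 3) (1 : QuaternionGroup 3 →* ℤˣ) (D i) = tW_Q3_s1 i := by decide +kernel
def tW_Q7_s1 : Fin 12 → ℤ × ℤ × ℤ × ℤ := ![(1, 1, 1, 1), (2, 2, 2, 2), (1, 1, 1, 1), (16, -12, 16, -12), (2, 2, 2, 2), (7, 7, 7, 7), (16, -12, 16, -12), (14, 14, 14, 14), (7, 7, 7, 7), (28, 0, 28, 0), (14, 14, 14, 14), (28, 0, 28, 0)]
lemma W_Q7_s1 : ∀ i, W (sgnQ 7) (1 : QuaternionGroup 7 →* ℤˣ) (D i) = tW_Q7_s1 i := by decide +kernel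
def tW_Q7_ss : Fin 12 → ℤ × ℤ × ℤ × ℤ := ![(1, 1, 1, 1), (2, 2, 2, 2), (1, 1, 1, 1), (16, -12, -12, 16), (2, 2, 2, 2), (7, 7, 7, 7), (16, -12, -12, 16), (14, 14, 14, 14), (7, 7, 7, 7), (28, 0, 0, 28), (14, 14, 14, 14), (28, 0, 0, 28)]
lemma W_Q7_ss : ∀ i, W (sgnQ 7) (sgnQ 7) (D i) = tW_Q7_ss i := by decide +kernel

def T_A_C2 : Fin 12 → ℕ := ![1, 2, 1, 2, 2, 1, 2, 2, 1, 2, 2, 2]
lemma tab_A_C2 : HasTab (Multiplicative (ZMod 2)) T_A_C2 := HasTab.of_fintype exp_C2 (by decide +kernel)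

def T_A_C3 : Fin 12 → ℕ := ![1, 1, 3, 1, 3, 1, 3, 1, 3, 1, 3, 3]
lemma tab_A_C3 : HasTab (Multiplicative (ZMod 3)) T_A_C3 := HasTab.of_fintype exp_C3 (by decide +kernel)

def T_A_C4 : Fin 12 → ℕ := ![1, 2, 1, 4, 2, 1, 4, 2, 1, 4, 2, 4]
lemma tab_A_C4 : HasTab (Multiplicative (ZMod 4)) T_A_C4 := HasTab.of_fintype exp_C4 (by decide +kernel)

def T_A_D4 : Fin 12 → ℕ := ![1, 6, 1, 8, 6, 1, 8, 6, 1, 8, 6, 8]
lemma tab_A_D4 : HasTab (DihedralGroup 4) T_A_D4 := HasTab.of_fintype exp_D4 (by decide +kernel)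

def T_A_Q3 : Fin 12 → ℕ := ![1, 2, 3, 8, 6, 1, 12, 2, 3, 8, 6, 12]
lemma tab_A_Q3 : HasTab (QuaternionGroup 3) T_A_Q3 := HasTab.of_fintype exp_Q3 (by decide +kernel)

def T_A_D7 : Fin 12 → ℕ := ![1, 8, 1, 8, 8, 7, 8, 14, 7, 14, 14, 14]
lemma tab_A_D7 : HasTab (DihedralGroup 7) T_A_D7 := HasTab.of_fintype exp_D7 (by decide +kernel)

/-- a subdirect product of order 24 -/
abbrev K7 := ↥(((sgnD 3).coprod (sgnD 4)).ker ⊓ ((1 : DihedralGroup 3 →* ℤˣ).coprod (1 : DihedralGroup 4 →* ℤˣ)).ker)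
def T_K7 : Fin 12 → ℕ := ![1, 14, 3, 16, 18, 1, 24, 14, 3, 16, 18, 24]
lemma exp_K7 : ∀ x : DihedralGroup 3 × DihedralGroup 4, x ^ 84 = 1 := (exp_prod exp_D3 exp_D4)
lemma tab_K7 : HasTab K7 T_K7 := by
  refine hasTab_ker _ _ _ exp_K7 ?_
  intro i
  rw [W_coprod, W_D3_s1 i, W_D4_s1 i]
  revert i
  decide +kernel

/-- a subdirect product of order 24 -/
abbrev K8 := ↥(((sgnD 3).coprod chi2).ker ⊓ ((1 : DihedralGroup 3 →* ℤˣ).coprod (1 : DihedralGroup 4 →* ℤˣ)).ker)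
def T_K8 : Fin 12 → ℕ := ![1, 10, 3, 16, 18, 1, 24, 10, 3, 16, 18, 24]
lemma exp_K8 : ∀ x : DihedralGroup 3 × DihedralGroup 4, x ^ 84 = 1 := (exp_prod exp_D3 exp_D4)
lemma tab_K8 : HasTab K8 T_K8 := by
  refine hasTab_ker _ _ _ exp_K8 ?_
  intro i
  rw [W_coprod, W_D3_s1 i, W_D4_c1 i]
  revert i
  decide +kernel

def T_A_Q7 : Fin 12 → ℕ := ![1, 2, 1, 16, 2, 7, 16, 14, 7, 28, 14, 28]
lemma tab_A_Q7 : HasTab (QuaternionGroup 7) T_A_Q7 := HasTab.of_fintype exp_Q7 (by decide +kernel)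

/-- a subdirect product of order 36 -/
abbrev K10 := ↥(((sgnD 3).coprod (sgnQ 3)).ker ⊓ ((1 : DihedralGroup 3 →* ℤˣ).coprod (1 : QuaternionGroup 3 →* ℤˣ)).ker)
def T_K10 : Fin 12 → ℕ := ![1, 2, 9, 20, 18, 1, 36, 2, 9, 20, 18, 36]
lemma exp_K10 : ∀ x : DihedralGroup 3 × QuaternionGroup 3, x ^ 84 = 1 := (exp_prod exp_D3 exp_Q3)
lemma tab_K10 : HasTab K10 T_K10 := by
  refine hasTab_ker _ _ _ exp_K10 ?_
  intro i
  rw [W_coprod, W_D3_s1 i, W_Q3_s1 i]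
  revert i
  decide +kernel

/-- a subdirect product of order 42 -/
abbrev K11 := ↥(((sgnD 3).coprod (sgnD 7)).ker ⊓ ((1 : DihedralGroup 3 →* ℤˣ).coprod (1 : DihedralGroup 7 →* ℤˣ)).ker)
def T_K11 : Fin 12 → ℕ := ![1, 22, 3, 22, 24, 7, 24, 28, 21, 28, 42, 42]
lemma exp_K11 : ∀ x : DihedralGroup 3 × DihedralGroup 7, x ^ 84 = 1 := (exp_prod exp_D3 exp_D7)
lemma tab_K11 : HasTab K11 T_K11 := by
  refine hasTab_ker _ _ _ exp_K11 ?_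
  intro i
  rw [W_coprod, W_D3_s1 i, W_D7_s1 i]
  revert i
  decide +kernel

/-- a subdirect product of order 56 -/
abbrev K12 := ↥(((sgnD 7).coprod chi2).ker ⊓ ((1 : DihedralGroup 7 →* ℤˣ).coprod (1 : DihedralGroup 4 →* ℤˣ)).ker)
def T_K12 : Fin 12 → ℕ := ![1, 18, 1, 32, 18, 7, 32, 42, 7, 56, 42, 56]
lemma exp_K12 : ∀ x : DihedralGroup 7 × DihedralGroup 4, x ^ 84 = 1 := (exp_prod exp_D7 exp_D4)
lemma tab_K12 : HasTab K12 T_K12 := by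
  refine hasTab_ker _ _ _ exp_K12 ?_
  intro i
  rw [W_coprod, W_D7_s1 i, W_D4_c1 i]
  revert i
  decide +kernel

/-- a subdirect product of order 56 -/
abbrev K13 := ↥(((sgnD 7).coprod (sgnD 4)).ker ⊓ ((1 : DihedralGroup 7 →* ℤˣ).coprod (1 : DihedralGroup 4 →* ℤˣ)).ker)
def T_K13 : Fin 12 → ℕ := ![1, 30, 1, 32, 30, 7, 32, 42, 7, 56, 42, 56]
lemma exp_K13 : ∀ x : DihedralGroup 7 × DihedralGroup 4, x ^ 84 = 1 := (exp_prod exp_D7 exp_D4)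
lemma tab_K13 : HasTab K13 T_K13 := by
  refine hasTab_ker _ _ _ exp_K13 ?_
  intro i
  rw [W_coprod, W_D7_s1 i, W_D4_s1 i]
  revert i
  decide +kernel

/-- a subdirect product of order 84 -/
abbrev K14 := ↥(((sgnD 3).coprod (sgnQ 7)).ker ⊓ ((1 : DihedralGroup 3 →* ℤˣ).coprod (1 : QuaternionGroup 7 →* ℤˣ)).ker)
def T_K14 : Fin 12 → ℕ := ![1, 2, 3, 44, 6, 7, 48, 14, 21, 56, 42, 84]
lemma exp_K14 : ∀ x : DihedralGroup 3 × QuaternionGroup 7, x ^ 84 = 1 := (exp_prod exp_D3 exp_Q7)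
lemma tab_K14 : HasTab K14 T_K14 := by
  refine hasTab_ker _ _ _ exp_K14 ?_
  intro i
  rw [W_coprod, W_D3_s1 i, W_Q7_s1 i]
  revert i
  decide +kernel

/-- a subdirect product of order 168 -/
abbrev K15 := ↥(((1 : DihedralGroup 3 →* ℤˣ).coprod ((sgnD 7).coprod chi2)).ker ⊓ ((sgnD 3).coprod ((1 : DihedralGroup 7 →* ℤˣ).coprod (sgnD 4))).ker)
def T_K15 : Fin 12 → ℕ := ![1, 50, 3, 64, 54, 7, 96, 98, 21, 112, 126, 168]
lemma exp_K15 : ∀ x : DihedralGroup 3 × (DihedralGroup 7 × DihedralGroup 4), x ^ 84 = 1 := (exp_prod exp_D3 (exp_prod exp_D7 exp_D4))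
lemma tab_K15 : HasTab K15 T_K15 := by
  refine hasTab_ker _ _ _ exp_K15 ?_
  intro i
  rw [W_coprod, W_coprod, W_D3_1s i, W_D7_s1 i, W_D4_cs i]
  revert i
  decide +kernel

/-- a subdirect product of order 252 -/
abbrev K16 := ↥(((1 : DihedralGroup 3 →* ℤˣ).coprod ((sgnD 3).coprod (sgnQ 7))).ker ⊓ ((sgnD 3).coprod ((1 : DihedralGroup 3 →* ℤˣ).coprod (sgnQ 7))).ker)
def T_K16 : Fin 12 → ℕ := ![1, 2, 9, 128, 18, 7, 144, 14, 63, 140, 126, 252]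
lemma exp_K16 : ∀ x : DihedralGroup 3 × (DihedralGroup 3 × QuaternionGroup 7), x ^ 84 = 1 := (exp_prod exp_D3 (exp_prod exp_D3 exp_Q7))
lemma tab_K16 : HasTab K16 T_K16 := by
  refine hasTab_ker _ _ _ exp_K16 ?_
  intro i
  rw [W_coprod, W_coprod, W_D3_1s i, W_D3_s1 i, W_Q7_ss i]
  revert i
  decide +kernel

/-- a subdirect product of order 252 -/
abbrev K17 := ↥(((sgnD 3).coprod ((sgnD 3).coprod (sgnD 7))).ker ⊓ ((1 : DihedralGroup 3 →* ℤˣ).coprod ((1 : DihedralGroup 3 →* ℤˣ).coprod (1 : DihedralGroup 7 →* ℤˣ))).ker)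
def T_K17 : Fin 12 → ℕ := ![1, 52, 9, 52, 144, 7, 144, 112, 63, 112, 252, 252]
lemma exp_K17 : ∀ x : DihedralGroup 3 × (DihedralGroup 3 × DihedralGroup 7), x ^ 84 = 1 := (exp_prod exp_D3 (exp_prod exp_D3 exp_D7))
lemma tab_K17 : HasTab K17 T_K17 := by
  refine hasTab_ker _ _ _ exp_K17 ?_
  intro i
  rw [W_coprod, W_coprod, W_D3_s1 i, W_D7_s1 i]
  revert i
  decide +kernel

/-- a subdirect product of order 336 -/
abbrev K18 := ↥(((sgnD 3).coprod ((sgnD 7).coprod (sgnD 4))).ker ⊓ ((1 : DihedralGroup 3 →* ℤˣ).coprod ((1 : DihedralGroup 7 →* ℤˣ).coprod (1 : DihedralGroup 4 →* ℤˣ))).ker)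
def T_K18 : Fin 12 → ℕ := ![1, 84, 3, 128, 144, 7, 192, 168, 21, 224, 252, 336]
lemma exp_K18 : ∀ x : DihedralGroup 3 × (DihedralGroup 7 × DihedralGroup 4), x ^ 84 = 1 := (exp_prod exp_D3 (exp_prod exp_D7 exp_D4))
lemma tab_K18 : HasTab K18 T_K18 := by
  refine hasTab_ker _ _ _ exp_K18 ?_
  intro i
  rw [W_coprod, W_coprod, W_D3_s1 i, W_D7_s1 i, W_D4_s1 i]
  revert i
  decide +kernel

/-- a subdirect product of order 448 -/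
abbrev K19 := ↥(((sgnD 7).coprod ((sgnD 4).coprod chi2)).ker ⊓ ((1 : DihedralGroup 7 →* ℤˣ).coprod ((1 : DihedralGroup 4 →* ℤˣ).coprod (1 : DihedralGroup 4 →* ℤˣ))).ker)
def T_K19 : Fin 12 → ℕ := ![1, 156, 1, 256, 156, 7, 256, 252, 7, 448, 252, 448]
lemma exp_K19 : ∀ x : DihedralGroup 7 × (DihedralGroup 4 × DihedralGroup 4), x ^ 84 = 1 := (exp_prod exp_D7 (exp_prod exp_D4 exp_D4))
lemma tab_K19 : HasTab K19 T_K19 := by
  refine hasTab_ker _ _ _ exp_K19 ?_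
  intro i
  rw [W_coprod, W_coprod, W_D7_s1 i, W_D4_s1 i, W_D4_c1 i]
  revert i
  decide +kernel

/-- a subdirect product of order 504 -/
abbrev K20 := ↥(((sgnD 3).coprod ((sgnD 3).coprod (sgnQ 7))).ker ⊓ ((1 : DihedralGroup 3 →* ℤˣ).coprod ((1 : DihedralGroup 3 →* ℤˣ).coprod (1 : QuaternionGroup 7 →* ℤˣ))).ker)
def T_K20 : Fin 12 → ℕ := ![1, 20, 9, 104, 36, 7, 288, 140, 63, 224, 252, 504]
lemma exp_K20 : ∀ x : DihedralGroup 3 × (DihedralGroup 3 × QuaternionGroup 7), x ^ 84 = 1 := (exp_prod exp_D3 (exp_prod exp_D3 exp_Q7))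
lemma tab_K20 : HasTab K20 T_K20 := by
  refine hasTab_ker _ _ _ exp_K20 ?_
  intro i
  rw [W_coprod, W_coprod, W_D3_s1 i, W_Q7_s1 i]
  revert i
  decide +kernel

/-- a subdirect product of order 756 -/
abbrev K21 := ↥(((1 : DihedralGroup 3 →* ℤˣ).coprod ((sgnD 3).coprod ((sgnD 3).coprod (1 : DihedralGroup 7 →* ℤˣ)))).ker ⊓ ((sgnD 3).coprod ((1 : DihedralGroup 3 →* ℤˣ).coprod ((sgnD 3).coprod (sgnD 7)))).ker)
def T_K21 : Fin 12 → ℕ := ![1, 112, 27, 112, 432, 7, 432, 280, 189, 280, 756, 756]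
lemma exp_K21 : ∀ x : DihedralGroup 3 × (DihedralGroup 3 × (DihedralGroup 3 × DihedralGroup 7)), x ^ 84 = 1 := (exp_prod exp_D3 (exp_prod exp_D3 (exp_prod exp_D3 exp_D7)))
lemma tab_K21 : HasTab K21 T_K21 := by
  refine hasTab_ker _ _ _ exp_K21 ?_
  intro i
  rw [W_coprod, W_coprod, W_coprod, W_D3_1s i, W_D3_s1 i, W_D3_ss i, W_D7_1s i]
  revert i
  decide +kernel

/-- a subdirect product of order 1512 -/
abbrev K22 := ↥(((1 : DihedralGroup 3 →* ℤˣ).coprod ((1 : DihedralGroup 3 →* ℤˣ).coprod ((1 : DihedralGroup 3 →* ℤˣ).coprod (1 : DihedralGroup 7 →* ℤˣ)))).ker ⊓ ((sgnD 3).coprod ((sgnD 3).coprod ((sgnD 3).coprod (sgnD 7)))).ker)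
def T_K22 : Fin 12 → ℕ := ![1, 280, 27, 280, 864, 7, 864, 448, 189, 448, 1512, 1512]
lemma exp_K22 : ∀ x : DihedralGroup 3 × (DihedralGroup 3 × (DihedralGroup 3 × DihedralGroup 7)), x ^ 84 = 1 := (exp_prod exp_D3 (exp_prod exp_D3 (exp_prod exp_D3 exp_D7)))
lemma tab_K22 : HasTab K22 T_K22 := by
  refine hasTab_ker _ _ _ exp_K22 ?_
  intro i
  rw [W_coprod, W_coprod, W_coprod, W_D3_1s i, W_D7_1s i]
  revert i
  decide +kernel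

end Cfsg.Agent.Lib.Helper15.OTTerms
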