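import Mathlib
import Cfsg.Agent.S0493

set_option autoImplicit false

namespace Cfsg.Agent.Lib.Helper15.U33

universe u

theorem ext_solv' {G : Type*} [Group G] (N : Subgroup G) [N.Normal] (h1 : Group.IsSolvable N)
    (h2 : Group.IsSolvable (G ⧸ N)) : Group.IsSolvable G :=
  Group.isSolvable_of_ker_le_range N.subtype (QuotientGroup.mk' N)
    (by rw [QuotientGroup.ker_mk', Subgroup.range_subtype])

theorem card_bounds' {H : Type*} [Group H] [Finite H] (N : Subgroup H) (hb : N ≠ ⊥) (ht : N ≠ ⊤) :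
    Nat.card N < Nat.card H ∧ N.index < Nat.card H := by
  have h1 := N.card_mul_index
  have h2 : Nat.card N ≠ 1 := fun h => hb (Subgroup.card_eq_one.mp h)
  have h3 : N.index ≠ 1 := fun h => ht (Subgroup.index_eq_one.mp h)
  have h4 : 0 < Nat.card N := Nat.card_pos
  have h5 : N.index ≠ 0 := Subgroup.index_ne_zero_of_finite
  have h6 : 2 ≤ Nat.card N := by omega
  have h7 : 2 ≤ N.index := by omega
  rw [← h1]
  constructor <;> nlinarith

theorem le84 (n : ℕ) (hd : n ∣ 168) (hlt : n < 168) : n ≤ 84 := by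
  obtain ⟨k, hk⟩ := hd
  rcases k with _ | _ | k
  · omega
  · omega
  · have : n * 2 ≤ n * (k + 1 + 1) := Nat.mul_le_mul_left _ (by omega)
    omega

theorem solv_dvd168 (n : ℕ) : ∀ (H : Type u) [Group H] [Finite H], Nat.card H = n → n ∣ 168 →
    n < 168 → Group.IsSolvable H := by
  induction n using Nat.strong_induction_on with
  | _ n ih =>
    intro H _ _ hn hd hlt
    have h84 := le84 n hd hlt
    by_cases hs : IsSimpleGroup H
    · by_cases hc : IsCyclic H
      · let _ := IsCyclic.commGroup (α := H)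
        exact Group.isSolvable_of_comm (fun a b => mul_comm a b)
      · have h60 := Cfsg.Agent.S0493.result hc (by omega)
        rw [hn] at h60
        subst h60
        exact absurd hd (by decide)
    · by_cases hsub : Subsingleton H
      · infer_instance
      · have hex : ∃ N : Subgroup H, N.Normal ∧ N ≠ ⊥ ∧ N ≠ ⊤ := by
          by_contra hcon
          push Not at hcon
          apply hs
          have : Nontrivial H := not_subsingleton_iff_nontrivial.mp hsub
          refine ⟨fun N hN => ?_⟩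
          by_cases h : N = ⊥
          · exact Or.inl h
          · exact Or.inr (hcon N hN h)
        obtain ⟨N, hN, hb, ht⟩ := hex
        obtain ⟨c1, c2⟩ := card_bounds' N hb ht
        have d1 : Nat.card N ∣ 168 := (hn ▸ N.card_subgroup_dvd_card).trans hd
        have d2 : N.index ∣ 168 := (hn ▸ N.index_dvd_card).trans hd
        have s1 := ih (Nat.card N) (by omega) N rfl d1 (by omega)
        have s2 := ih N.index (by omega) (H ⧸ N) rfl d2 (by omega)
        exact ext_solv' N s1 s2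

theorem simple_of_perfect168 {H : Type u} [Group H] [Finite H] (hc : Nat.card H = 168)
    (hp : commutator H = ⊤) : IsSimpleGroup H := by
  have : Nontrivial H := by
    rw [← Finite.one_lt_card_iff_nontrivial, hc]; norm_num
  refine ⟨fun N hN => ?_⟩
  by_contra hcon
  push Not at hcon
  obtain ⟨hb, ht⟩ := hcon
  obtain ⟨c1, c2⟩ := card_bounds' N hb ht
  have d2 : N.index ∣ 168 := hc ▸ N.index_dvd_card
  have s2 : Group.IsSolvable (H ⧸ N) := solv_dvd168 N.index (H ⧸ N) rfl d2 (by omega)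
  have : Nontrivial (H ⧸ N) := by
    rw [← Finite.one_lt_card_iff_nontrivial]
    have h3 : N.index ≠ 1 := fun h => ht (Subgroup.index_eq_one.mp h)
    have h5 : N.index ≠ 0 := Subgroup.index_ne_zero_of_finite
    have : Nat.card (H ⧸ N) = N.index := rfl
    omega
  have hlt := Group.IsSolvable.commutator_lt_top_of_nontrivial (H ⧸ N)
  have h1 := Subgroup.map_commutator (⊤ : Subgroup H) ⊤ (QuotientGroup.mk' N)
  rw [← commutator_def, hp, Subgroup.map_top_of_surjective _ (QuotientGroup.mk'_surjective N),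
    ← commutator_def] at h1
  exact absurd h1.symm hlt.ne

theorem abstract168 {G : Type u} [Group G] [Finite G] (L : List ℕ) (hnd : L.Nodup)
    (hlen : L.length = 168) (φ : ℕ → G) (m : ℕ → ℕ → ℕ) (e : ℕ) (he : e ∈ L) (hφe : φ e = 1)
    (hcl : ∀ a ∈ L, ∀ b ∈ L, m a b ∈ L)
    (hmul : ∀ a ∈ L, ∀ b ∈ L, φ (m a b) = φ a * φ b)
    (hinj : ∀ a ∈ L, ∀ b ∈ L, φ a = φ b → a = b)
    (W : List (ℕ × ℕ × ℕ)) (hW : (W.map (fun w => w.1)).Nodup) (hWlen : W.length = 85)
    (hWc : ∀ w ∈ W, w.1 ∈ L ∧ w.2.1 ∈ L ∧ w.2.2 ∈ L ∧ m w.2.1 w.2.2 = m w.1 (m w.2.2 w.2.1)) :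
    ∃ H : Subgroup G, Nat.card H = 168 ∧ commutator H = ⊤ := by
  classical
  have hpow : ∀ n ∈ L, ∀ k : ℕ, ∃ n' ∈ L, φ n' = φ n ^ k := by
    intro n hn k
    induction k with
    | zero => exact ⟨e, he, by rw [hφe, pow_zero]⟩
    | succ k ih =>
      obtain ⟨n', hn', h'⟩ := ih
      exact ⟨m n' n, hcl _ hn' _ hn, by rw [hmul _ hn' _ hn, h', pow_succ]⟩
  let H : Subgroup G :=
    { carrier := {x | ∃ n ∈ L, φ n = x}
      mul_mem' := by
        rintro _ _ ⟨a, ha, rfl⟩ ⟨b, hb, rfl⟩
        exact ⟨m a b, hcl a ha b hb, hmul a ha b hb⟩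
      one_mem' := ⟨e, he, hφe⟩
      inv_mem' := by
        rintro _ ⟨a, ha, rfl⟩
        obtain ⟨n', hn', h'⟩ := hpow a ha (orderOf (φ a) - 1)
        refine ⟨n', hn', ?_⟩
        rw [h']
        apply eq_inv_of_mul_eq_one_left
        rw [← pow_succ, Nat.sub_add_cancel (orderOf_pos (φ a)), pow_orderOf_eq_one] }
  have hmemH : ∀ n ∈ L, φ n ∈ H := fun n hn => ⟨n, hn, rfl⟩
  have hcardH : Nat.card H = 168 := by
    let g : {n // n ∈ L.toFinset} → H := fun n => ⟨φ n.1, hmemH _ (List.mem_toFinset.1 n.2)⟩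
    have hg : Function.Bijective g := by
      constructor
      · intro a b hab
        exact Subtype.ext (hinj _ (List.mem_toFinset.1 a.2) _ (List.mem_toFinset.1 b.2)
          (congrArg Subtype.val hab))
      · rintro ⟨x, n, hn, rfl⟩
        exact ⟨⟨n, List.mem_toFinset.2 hn⟩, rfl⟩
    rw [← Nat.card_congr (Equiv.ofBijective g hg), Nat.card_eq_fintype_card, Fintype.card_coe,
      List.toFinset_card_of_nodup hnd, hlen]
  refine ⟨H, hcardH, ?_⟩
  have hD : ∀ c : {c // c ∈ (W.map (fun w => w.1)).toFinset},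
      ∃ d : commutator H, ((d : H) : G) = φ c.1 := by
    rintro ⟨c, hc⟩
    obtain ⟨w, hw, rfl⟩ := List.mem_map.1 (List.mem_toFinset.1 hc)
    obtain ⟨h1, h2, h3, h4⟩ := hWc w hw
    let X : H := ⟨φ w.2.1, hmemH _ h2⟩
    let Y : H := ⟨φ w.2.2, hmemH _ h3⟩
    have hm := Subgroup.commutator_mem_commutator (Subgroup.mem_top X) (Subgroup.mem_top Y)
    refine ⟨⟨_, hm⟩, ?_⟩
    have h5 : φ w.2.1 * φ w.2.2 = φ w.1 * (φ w.2.2 * φ w.2.1) := by
      rw [← hmul _ h2 _ h3, h4, hmul _ h1 _ (hcl _ h3 _ h2), hmul _ h3 _ h2]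
    show φ w.2.1 * φ w.2.2 * (φ w.2.1)⁻¹ * (φ w.2.2)⁻¹ = φ w.1
    rw [h5]
    group
  choose f hf using hD
  have hfinj : Function.Injective f := by
    intro a b hab
    have h1 : φ a.1 = φ b.1 := by rw [← hf a, ← hf b, hab]
    obtain ⟨w, hw, hwa⟩ := List.mem_map.1 (List.mem_toFinset.1 a.2)
    obtain ⟨w', hw', hwb⟩ := List.mem_map.1 (List.mem_toFinset.1 b.2)
    have ha : a.1 ∈ L := hwa ▸ (hWc w hw).1
    have hb : b.1 ∈ L := hwb ▸ (hWc w' hw').1
    exact Subtype.ext (hinj _ ha _ hb h1)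
  have h85 : 85 ≤ Nat.card (commutator H) := by
    have h1 := Nat.card_le_card_of_injective f hfinj
    rw [Nat.card_eq_fintype_card, Fintype.card_coe, List.toFinset_card_of_nodup hW,
      List.length_map, hWlen] at h1
    exact h1
  have hdvd : Nat.card (commutator H) ∣ 168 := hcardH ▸ (commutator H).card_subgroup_dvd_card
  apply Subgroup.eq_top_of_card_eq
  rw [hcardH]
  by_contra hne
  have hle := Nat.le_of_dvd (by norm_num) hdvd
  have := le84 _ hdvd (by omega)
  omega

end Cfsg.Agent.Lib.Helper15.U33
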