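import Mathlib
import Cfsg.Prelude.Def_Classical
import Cfsg.Agent.Lib.Helper15.U33c
import Cfsg.Agent.Lib.Helper15.U33d
import Cfsg.Agent.Lib.Helper15.U33e

set_option autoImplicit false

namespace Cfsg.Agent.Lib.Helper15.U33

section
variable {F : Type*} [Field F] [CharP F 3] (i : F) (hi : i ^ 2 = -1)

noncomputable def phi (n : ℕ) : Cfsg.SU 3 F 3 :=
  if h : mulN (trN n) (cjN n) = oneN ∧ detN n = 1 then
    ⟨⟨toMF i n, by rw [toMF_det i hi, h.2, rho_one]⟩,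
      fun u v => herm_pres (toMF i n)
        (by rw [← toMF_tr, ← toMF_cj i hi, ← toMF_mul i hi, h.1, toMF_one]) u v⟩
  else 1

theorem phi_val (n : ℕ) (h : mulN (trN n) (cjN n) = oneN ∧ detN n = 1) :
    (((phi i hi n : Cfsg.SU 3 F 3) : Matrix.SpecialLinearGroup (Fin 3) F) :
      Matrix (Fin 3) (Fin 3) F) = toMF i n := by
  unfold phi
  rw [dif_pos h]

end

theorem su33_aux {F : Type*} [Field F] [Fintype F] (hF : Fintype.card F = 9)
    (L : List ℕ) (hnd : L.Nodup) (hlen : L.length = 168) (e : ℕ) (he : e ∈ L) (he1 : e = oneN)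
    (hchk : ∀ n ∈ L, n < 387420489 ∧ mulN (trN n) (cjN n) = oneN ∧ detN n = 1)
    (hcl : ∀ a ∈ L, ∀ b ∈ L, mulN a b ∈ L)
    (W : List (ℕ × ℕ × ℕ)) (hW : (W.map (fun w => w.1)).Nodup) (hWlen : W.length = 85)
    (hWc : ∀ w ∈ W, w.1 ∈ L ∧ w.2.1 ∈ L ∧ w.2.2 ∈ L ∧
      mulN w.2.1 w.2.2 = mulN w.1 (mulN w.2.2 w.2.1)) :
    ∃ H : Subgroup (Cfsg.SU 3 F 3), Nat.card H = 168 ∧ commutator H = ⊤ := by
  have hchar := charP_of_card hF
  obtain ⟨i, hi⟩ := exists_i hF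
  have hv : ∀ n ∈ L, mulN (trN n) (cjN n) = oneN ∧ detN n = 1 :=
    fun n hn => (hchk n hn).2
  obtain ⟨φ, hφ⟩ : ∃ φ : ℕ → Cfsg.SU 3 F 3, ∀ n,
      (mulN (trN n) (cjN n) = oneN ∧ detN n = 1) →
      (((φ n : Cfsg.SU 3 F 3) : Matrix.SpecialLinearGroup (Fin 3) F) :
        Matrix (Fin 3) (Fin 3) F) = toMF i n := ⟨phi i hi, phi_val i hi⟩
  refine abstract168 L hnd hlen φ mulN e he ?_ hcl ?_ ?_ W hW hWlen hWc
  · apply Subtype.ext
    apply Subtype.ext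
    rw [hφ _ (hv _ he), he1, toMF_one]
    rfl
  · intro a ha b hb
    apply Subtype.ext
    apply Subtype.ext
    rw [hφ _ (hv _ (hcl a ha b hb)), toMF_mul i hi, Subgroup.coe_mul,
      Matrix.SpecialLinearGroup.coe_mul, hφ _ (hv _ ha), hφ _ (hv _ hb)]
  · intro a ha b hb h
    have h1 : toMF i a = toMF i b := by
      rw [← hφ _ (hv _ ha), ← hφ _ (hv _ hb), h]
    exact toMF_inj i hi _ _ (hchk a ha).1 (hchk b hb).1 h1

theorem su33_has_168 {F : Type*} [Field F] [Fintype F] (hF : Fintype.card F = 9) :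
    ∃ H : Subgroup (Cfsg.SU 3 F 3), Nat.card H = 168 ∧ commutator H = ⊤ :=
  su33_aux hF H168 (nodup_of_sortedB _ H168_sorted) H168_length oneN H168_one rfl H168_chk
    H168_closed W85 (nodup_of_sortedB _ W85_sorted) W85_length W85_cert

end Cfsg.Agent.Lib.Helper15.U33
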